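import Mathlib

/-!
# Forms and skew maps (S5920, helper811)

* `ND B X` : the form `B` has no radical on `X`;
* `eig X τ c` : the eigenvectors of `τ` in `X`;
* `ND.eig`, `finrank_eig` : for an isometric involution;
* `skew_bound` : `2 dim X ≤ dim Y + 3 dim (X ∩ ker d)` for a skew `d : X → Y → X` with `d ^ 3 = 0` on `X`.
-/

set_option autoImplicit false

namespace Cfsg.Agent.H811.L7

open Module LinearMap

variable {K V : Type*} [Field K] [AddCommGroup V] [Module K V]

/-- `B` has no radical on `X` -/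
def ND (B : LinearMap.BilinForm K V) (X : Submodule K V) : Prop := ∀ x ∈ X, (∀ y ∈ X, B x y = 0) → x = 0

/-- the eigenvectors of `τ` in `X` -/
def eig (X : Submodule K V) (τ : V →ₗ[K] V) (c : K) : Submodule K V := X ⊓ LinearMap.ker (τ - c • LinearMap.id)

theorem mem_eig {X : Submodule K V} {τ : V →ₗ[K] V} {c : K} {v : V} : v ∈ eig X τ c ↔ v ∈ X ∧ τ v = c • v := by
  rw [eig, Submodule.mem_inf, LinearMap.mem_ker, LinearMap.sub_apply, sub_eq_zero, LinearMap.smul_apply,
    LinearMap.id_apply]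

theorem nd_top {B : LinearMap.BilinForm K V} (hB : B.Nondegenerate) : ND B ⊤ := fun x _ h =>
  hB.1 x fun y => h y trivial

theorem ND.eig {B : LinearMap.BilinForm K V} {X : Submodule K V} {τ : V →ₗ[K] V} {c : K} (h2 : (2 : K) ≠ 0)
    (h : ND B X) (hτ : ∀ x ∈ X, τ x ∈ X) (hτ2 : ∀ x ∈ X, τ (τ x) = x) (hB : ∀ x ∈ X, ∀ y ∈ X, B (τ x) (τ y) = B x y)
    (hc : c * c = 1) : ND B (eig X τ c) := by
  intro x hx h1
  obtain ⟨hxX, hxc⟩ := mem_eig.1 hx
  refine h x hxX fun y hy => ?_
  have h3 : y + c • τ y ∈ L7.eig X τ c := by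
    refine mem_eig.2 ⟨X.add_mem hy (X.smul_mem c (hτ y hy)), ?_⟩
    rw [map_add, map_smul, hτ2 y hy, smul_add, smul_smul, hc, one_smul, add_comm]
  have h4 := h1 _ h3
  have h5 : B x (τ y) = c * B x y := by
    have h6 := hB x hxX (τ y) (hτ y hy)
    rw [hτ2 y hy, hxc, map_smul, LinearMap.smul_apply, smul_eq_mul] at h6
    exact h6.symm
  rw [map_add, map_smul, h5, smul_eq_mul, ← mul_assoc, hc, one_mul] at h4
  have h6 : 2 * B x y = 0 := by rw [← h4]; ring
  exact (mul_eq_zero.1 h6).resolve_left h2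

theorem finrank_eig [FiniteDimensional K V] {X : Submodule K V} {τ : V →ₗ[K] V} (h2 : (2 : K) ≠ 0)
    (hτ : ∀ x ∈ X, τ x ∈ X) (hτ2 : ∀ x ∈ X, τ (τ x) = x) :
    finrank K (eig X τ 1) + finrank K (eig X τ (-1)) = finrank K X := by
  have h1 : eig X τ 1 ⊓ eig X τ (-1) = ⊥ := by
    rw [eq_bot_iff]
    intro v hv
    obtain ⟨h3, h4⟩ := Submodule.mem_inf.1 hv
    rw [mem_eig] at h3 h4
    have h5 : v + v = 0 := by
      have h6 := h3.2.symm.trans h4.2
      rw [one_smul, neg_smul, one_smul, eq_neg_iff_add_eq_zero] at h6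
      exact h6
    rw [← two_smul K v] at h5
    exact (smul_eq_zero.1 h5).resolve_left h2
  have h3 : eig X τ 1 ⊔ eig X τ (-1) = X := by
    apply le_antisymm (sup_le inf_le_left inf_le_left)
    intro v hv
    have h5 : v = (2 : K)⁻¹ • (v + τ v) + (2 : K)⁻¹ • (v - τ v) := by
      rw [← smul_add, add_add_sub_cancel, ← two_smul K v, smul_smul, inv_mul_cancel₀ h2, one_smul]
    rw [h5]
    refine Submodule.add_mem_sup (Submodule.smul_mem _ _ (mem_eig.2 ⟨X.add_mem hv (hτ v hv), ?_⟩))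
      (Submodule.smul_mem _ _ (mem_eig.2 ⟨X.sub_mem hv (hτ v hv), ?_⟩))
    · rw [map_add, hτ2 v hv, one_smul, add_comm]
    · rw [map_sub, hτ2 v hv, neg_smul, one_smul, neg_sub]
  have h4 := Submodule.finrank_sup_add_finrank_inf_eq (eig X τ 1) (eig X τ (-1))
  rw [h1, h3, finrank_bot, add_zero] at h4
  exact h4.symm

/-- rank of a skew map -/
theorem skew_rank [FiniteDimensional K V] {B : LinearMap.BilinForm K V} {X Y : Submodule K V} (hY : ND B Y)
    (d₁ : X →ₗ[K] Y) (d₂ : Y →ₗ[K] X) (hskew : ∀ (x : X) (y : Y), B (d₁ x : V) y = - B x (d₂ y : V)) :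
    finrank K (range d₁) ≤ finrank K (range d₂) := by
  let BY : Y →ₗ[K] Dual K Y := B.domRestrict₁₂ Y Y
  let BX : X →ₗ[K] Dual K X := B.domRestrict₁₂ X X
  have hYi : Function.Injective BY := by
    rw [← LinearMap.ker_eq_bot, LinearMap.ker_eq_bot']
    intro y hy
    apply Subtype.ext
    refine hY y y.2 fun z hz => ?_
    exact LinearMap.congr_fun hy ⟨z, hz⟩
  have hcomp : BY ∘ₗ d₁ = - (d₂.dualMap ∘ₗ BX) := by
    ext x y
    exact hskew x y
  have h1 : finrank K (range (BY ∘ₗ d₁)) = finrank K (range d₁) := by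
    rw [LinearMap.range_comp]
    exact (LinearEquiv.finrank_eq (Submodule.equivMapOfInjective BY hYi (range d₁))).symm
  rw [← h1, hcomp]
  have h2 : range (-(d₂.dualMap ∘ₗ BX)) ≤ range d₂.dualMap := by
    rintro _ ⟨x, rfl⟩
    exact ⟨-(BX x), by rw [map_neg]; rfl⟩
  exact (Submodule.finrank_mono h2).trans_eq (LinearMap.finrank_range_dualMap_eq_finrank_range d₂)

theorem skew_bound [FiniteDimensional K V] {B : LinearMap.BilinForm K V} {X Y : Submodule K V} (hY : ND B Y)
    (d : V →ₗ[K] V) (hdX : ∀ x ∈ X, d x ∈ Y) (hdY : ∀ y ∈ Y, d y ∈ X)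
    (hskew : ∀ x ∈ X, ∀ y ∈ Y, B (d x) y = - B x (d y)) (hd3 : ∀ x ∈ X, d (d (d x)) = 0) :
    2 * finrank K X ≤ finrank K Y + 3 * finrank K (X ⊓ ker d : Submodule K V) := by
  let d₁ : X →ₗ[K] Y := d.restrict hdX
  let d₂ : Y →ₗ[K] X := d.restrict hdY
  have h1 := skew_rank hY d₁ d₂ (fun x y => hskew x x.2 y y.2)
  have h2 := LinearMap.finrank_range_add_finrank_ker d₁
  have h3 := LinearMap.finrank_range_add_finrank_ker d₂
  -- the kernel of `d₁`
  have h4 : finrank K (ker d₁) = finrank K (X ⊓ ker d : Submodule K V) := by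
    have h5 : (ker d₁).map X.subtype = X ⊓ ker d := by
      ext v
      constructor
      · rintro ⟨x, hx, rfl⟩
        refine ⟨x.2, ?_⟩
        exact congrArg Subtype.val (LinearMap.mem_ker.1 hx)
      · rintro ⟨hv, hd⟩
        exact ⟨⟨v, hv⟩, LinearMap.mem_ker.2 (Subtype.ext (LinearMap.mem_ker.1 hd)), rfl⟩
    rw [← h5]
    exact (LinearEquiv.finrank_eq (Submodule.equivMapOfInjective X.subtype X.injective_subtype (ker d₁)))
  -- `d₂` on the range of `d₁`
  have h5 := LinearMap.finrank_range_add_finrank_ker (d₂.domRestrict (range d₁))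
  have h6 : finrank K (range (d₂.domRestrict (range d₁))) ≤ finrank K (ker d₁) := by
    apply Submodule.finrank_mono
    rintro _ ⟨⟨_, x, rfl⟩, rfl⟩
    exact LinearMap.mem_ker.2 (Subtype.ext (hd3 x x.2))
  have h7 : finrank K (ker (d₂.domRestrict (range d₁))) ≤ finrank K (ker d₂) := by
    have h8 : (ker (d₂.domRestrict (range d₁))).map (range d₁).subtype ≤ ker d₂ := by
      rintro _ ⟨x, hx, rfl⟩
      exact hx
    have h9 := Submodule.finrank_mono h8
    rwa [← LinearEquiv.finrank_eq (Submodule.equivMapOfInjective (range d₁).subtype (range d₁).injective_subtype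
      (ker (d₂.domRestrict (range d₁))))] at h9
  omega

end Cfsg.Agent.H811.L7
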