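import Cfsg.Agent.H942.L7.Iface
import Cfsg.Agent.H811.L7.Lin

/-!
# `PSL₂(7)` in characteristic 3: elements and relations (S5920, helper811)

* `inS4 g` : `g` lies in the symmetric group `S4a = ⟨za, za', ta, h⟩` (decidable), `S4a` the set of its elements;
* `en, eh, ew, eza, eza', eta, ezb, ezb', etb` : the elements of `P ≥ P168`;
* `mem_V4a, mem_V4b, mem_D8a, mem_D8b, mem_U7, mem_P168, mem_S4a` : fixed vectors;
* `E7` : the sum of the elements of `U7` (the projection onto the fixed space);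
* `coset_act` : the action on the seven cosets of `S4a`.
-/

set_option autoImplicit false

namespace Cfsg.Agent.H811.L7

open Equiv Module LinearMap
open Cfsg.Agent.H942.L7

theorem nn_mem : nn ∈ P168 := Subgroup.subset_closure (by simp)
theorem hh_mem : g6 ^ 2 ∈ P168 := Subgroup.subset_closure (by simp)
theorem ww_mem : ww ∈ P168 := Subgroup.subset_closure (by simp)

theorem word_mem (i j k : ℕ) : nn ^ i * (g6 ^ 2) ^ j * ww * nn ^ k ∈ P168 :=
  mul_mem (mul_mem (mul_mem (pow_mem nn_mem i) (pow_mem hh_mem j)) ww_mem) (pow_mem nn_mem k)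

theorem za_mem : za ∈ P168 := by
  rw [show za = nn ^ 3 * (g6 ^ 2) ^ 0 * ww * nn ^ 4 by decide +kernel]; exact word_mem _ _ _
theorem za'_mem : za' ∈ P168 := by
  rw [show za' = nn ^ 6 * (g6 ^ 2) ^ 2 * ww * nn ^ 1 by decide +kernel]; exact word_mem _ _ _
theorem ta_mem : ta ∈ P168 := by
  rw [show ta = nn ^ 1 * (g6 ^ 2) ^ 1 * ww * nn ^ 6 by decide +kernel]; exact word_mem _ _ _
theorem zb_mem : zb ∈ P168 := by
  rw [show zb = nn ^ 2 * (g6 ^ 2) ^ 1 * ww * nn ^ 5 by decide +kernel]; exact word_mem _ _ _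
theorem zb'_mem : zb' ∈ P168 := by
  rw [show zb' = nn ^ 1 * (g6 ^ 2) ^ 2 * ww * nn ^ 6 by decide +kernel]; exact word_mem _ _ _
theorem tb_mem : tb ∈ P168 := by
  rw [show tb = nn ^ 5 * (g6 ^ 2) ^ 0 * ww * nn ^ 2 by decide +kernel]; exact word_mem _ _ _

/-- elements of the normalizer of `V4a` -/
def inS4 (g : Perm (Fin 8)) : Prop :=
  ∃ i j k : Fin 2, ∃ l : Fin 3, g = za ^ (i : ℕ) * za' ^ (j : ℕ) * ta ^ (k : ℕ) * (g6 ^ 2) ^ (l : ℕ)

instance : DecidablePred inS4 := fun g => by unfold inS4; infer_instance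

/-- the symmetric group normalising `V4a` -/
def S4a : Set (Perm (Fin 8)) := {g | inS4 g}

section elements

variable {P : Subgroup (Perm (Fin 8))} (hP : P168 ≤ P)

/-- `nn` -/
def en : ↥P := ⟨nn, hP nn_mem⟩
/-- `g6 ^ 2` -/
def eh : ↥P := ⟨g6 ^ 2, hP hh_mem⟩
/-- `ww` -/
def ew : ↥P := ⟨ww, hP ww_mem⟩
/-- `za` -/
def eza : ↥P := ⟨za, hP za_mem⟩
/-- `za'` -/
def eza' : ↥P := ⟨za', hP za'_mem⟩
/-- `ta` -/
def eta : ↥P := ⟨ta, hP ta_mem⟩
/-- `zb` -/
def ezb : ↥P := ⟨zb, hP zb_mem⟩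
/-- `zb'` -/
def ezb' : ↥P := ⟨zb', hP zb'_mem⟩
/-- `tb` -/
def etb : ↥P := ⟨tb, hP tb_mem⟩

theorem n_pow : en hP ^ 7 = 1 := Subtype.ext (show nn ^ 7 = 1 by decide +kernel)
theorem h_pow : eh hP ^ 3 = 1 := Subtype.ext (show (g6 ^ 2) ^ 3 = 1 by decide +kernel)
theorem w_pow : ew hP ^ 2 = 1 := Subtype.ext (show ww ^ 2 = 1 by decide +kernel)
theorem h_n : eh hP * en hP = en hP ^ 2 * eh hP :=
  Subtype.ext (show g6 ^ 2 * nn = nn ^ 2 * g6 ^ 2 by decide +kernel)
theorem w_h : ew hP * eh hP = eh hP ^ 2 * ew hP :=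
  Subtype.ext (show ww * g6 ^ 2 = (g6 ^ 2) ^ 2 * ww by decide +kernel)

end elements

section action

variable {V : Type*} [AddCommGroup V] [Module (ZMod 3) V]
variable {P : Subgroup (Perm (Fin 8))} (hP : P168 ≤ P) (ρ : Representation (ZMod 3) ↥P V)

theorem three_smul' (v : V) : v + v + v = 0 := by
  have h1 : ((3 : ℕ) : ZMod 3) • v = 0 := by
    rw [show ((3 : ℕ) : ZMod 3) = 0 by decide, zero_smul]
  rw [Nat.cast_smul_eq_nsmul] at h1
  rw [← h1]
  abel

theorem mulv (a b : ↥P) (v : V) : ρ (a * b) v = ρ a (ρ b v) := by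
  rw [map_mul]; rfl

theorem onev (v : V) : ρ 1 v = v := by rw [map_one]; rfl

variable {ρ}

theorem fix_mul {a b : ↥P} {v : V} (ha : ρ a v = v) (hb : ρ b v = v) : ρ (a * b) v = v := by
  rw [mulv, hb, ha]

theorem fix_inv {a : ↥P} {v : V} (ha : ρ a v = v) : ρ a⁻¹ v = v := by
  nth_rewrite 1 [← ha]
  rw [← mulv, inv_mul_cancel, onev]

theorem fix_pow {a : ↥P} {v : V} (ha : ρ a v = v) (k : ℕ) : ρ (a ^ k) v = v := by
  induction k with
  | zero => rw [pow_zero, onev]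
  | succ k ih => rw [pow_succ, mulv, ha, ih]

variable {Y : Set (Perm (Fin 8))} {v : V}

theorem mem_fixS : v ∈ fixS ρ Y ↔ ∀ g : ↥P, (g : Perm (Fin 8)) ∈ Y → ρ g v = v := Iff.rfl

include hP in
theorem mem_V4a : v ∈ fixS ρ V4a ↔ ρ (eza hP) v = v ∧ ρ (eza' hP) v = v := by
  rw [mem_fixS]
  constructor
  · intro h
    exact ⟨h _ (by simp [V4a, eza]), h _ (by simp [V4a, eza'])⟩
  · rintro ⟨h1, h2⟩ g (hg | hg | hg | hg)
    · rw [show g = 1 from Subtype.ext hg, onev]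
    · rw [show g = eza hP from Subtype.ext hg, h1]
    · rw [show g = eza' hP from Subtype.ext hg, h2]
    · rw [show g = eza hP * eza' hP from Subtype.ext hg, fix_mul h1 h2]

include hP in
theorem mem_V4b : v ∈ fixS ρ V4b ↔ ρ (ezb hP) v = v ∧ ρ (ezb' hP) v = v := by
  rw [mem_fixS]
  constructor
  · intro h
    exact ⟨h _ (by simp [V4b, ezb]), h _ (by simp [V4b, ezb'])⟩
  · rintro ⟨h1, h2⟩ g (hg | hg | hg | hg)
    · rw [show g = 1 from Subtype.ext hg, onev]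
    · rw [show g = ezb hP from Subtype.ext hg, h1]
    · rw [show g = ezb' hP from Subtype.ext hg, h2]
    · rw [show g = ezb hP * ezb' hP from Subtype.ext hg, fix_mul h1 h2]

include hP in
theorem mem_D8a : v ∈ fixS ρ D8a ↔ v ∈ fixS ρ V4a ∧ ρ (eta hP) v = v := by
  constructor
  · intro h
    refine ⟨fun g hg => h g (Or.inl hg), h _ (Or.inr ⟨1, Or.inl rfl, ?_⟩)⟩
    rw [one_mul]; rfl
  · rintro ⟨h1, h2⟩ g (hg | ⟨z, hz, hg⟩)
    · exact h1 g hg
    · have hzP : z ∈ P := by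
        apply hP
        rcases hz with rfl | rfl | rfl | rfl
        · exact one_mem _
        · exact za_mem
        · exact za'_mem
        · exact mul_mem za_mem za'_mem
      rw [show g = ⟨z, hzP⟩ * eta hP from Subtype.ext hg]
      exact fix_mul (h1 _ hz) h2

include hP in
theorem mem_D8b : v ∈ fixS ρ D8b ↔ v ∈ fixS ρ V4b ∧ ρ (etb hP) v = v := by
  constructor
  · intro h
    refine ⟨fun g hg => h g (Or.inl hg), h _ (Or.inr ⟨1, Or.inl rfl, ?_⟩)⟩
    rw [one_mul]; rfl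
  · rintro ⟨h1, h2⟩ g (hg | ⟨z, hz, hg⟩)
    · exact h1 g hg
    · have hzP : z ∈ P := by
        apply hP
        rcases hz with rfl | rfl | rfl | rfl
        · exact one_mem _
        · exact zb_mem
        · exact zb'_mem
        · exact mul_mem zb_mem zb'_mem
      rw [show g = ⟨z, hzP⟩ * etb hP from Subtype.ext hg]
      exact fix_mul (h1 _ hz) h2

include hP in
theorem mem_U7 : v ∈ fixS ρ U7 ↔ ρ (en hP) v = v := by
  constructor
  · intro h
    exact h _ ⟨1, (pow_one nn).symm⟩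
  · rintro h g ⟨i, hg⟩
    rw [show g = en hP ^ i from Subtype.ext hg]
    exact fix_pow h i

include hP in
theorem mem_P168 : v ∈ fixS ρ P168 ↔ ρ (en hP) v = v ∧ ρ (eh hP) v = v ∧ ρ (ew hP) v = v := by
  constructor
  · intro h
    exact ⟨h _ nn_mem, h _ hh_mem, h _ ww_mem⟩
  · rintro ⟨h1, h2, h3⟩ ⟨g, hgP⟩ (hg : g ∈ Subgroup.closure {nn, g6 ^ 2, ww})
    have key : ∀ g (hg : g ∈ Subgroup.closure {nn, g6 ^ 2, ww}), ∀ hgP : g ∈ P, ρ ⟨g, hgP⟩ v = v := by
      intro g hg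
      induction hg using Subgroup.closure_induction with
      | mem x hx =>
        intro hgP
        rcases hx with rfl | rfl | rfl
        · exact h1
        · exact h2
        · exact h3
      | one =>
        intro hgP
        exact onev ρ v
      | mul x y hx hy ihx ihy =>
        intro hgP
        exact fix_mul (a := ⟨x, hP hx⟩) (b := ⟨y, hP hy⟩) (ihx _) (ihy _)
      | inv x hx ih =>
        intro hgP
        exact fix_inv (a := ⟨x, hP hx⟩) (ih _)
    exact key g hg hgP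

include hP in
theorem mem_S4a : v ∈ fixS ρ S4a ↔ ρ (eza hP) v = v ∧ ρ (eza' hP) v = v ∧ ρ (eta hP) v = v ∧ ρ (eh hP) v = v := by
  constructor
  · intro h
    exact ⟨h _ (show inS4 za by decide +kernel), h _ (show inS4 za' by decide +kernel),
      h _ (show inS4 ta by decide +kernel), h _ (show inS4 (g6 ^ 2) by decide +kernel)⟩
  · rintro ⟨h1, h2, h3, h4⟩ g ⟨i, j, k, l, hg⟩
    rw [show g = eza hP ^ (i : ℕ) * eza' hP ^ (j : ℕ) * eta hP ^ (k : ℕ) * eh hP ^ (l : ℕ) from Subtype.ext hg]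
    exact fix_mul (fix_mul (fix_mul (fix_pow h1 _) (fix_pow h2 _)) (fix_pow h3 _)) (fix_pow h4 _)

include hP in
theorem S4_le_D8 : fixS ρ S4a ≤ fixS ρ D8a := fun v hv => by
  obtain ⟨h1, h2, h3, -⟩ := (mem_S4a hP).1 hv
  exact (mem_D8a hP).2 ⟨(mem_V4a hP).2 ⟨h1, h2⟩, h3⟩

/-- the cosets of `S4a` -/
theorem coset_act (g : ↥P) (i j : ℕ) (hv : v ∈ fixS ρ S4a)
    (h : inS4 ((nn ^ j)⁻¹ * (g : Perm (Fin 8)) * nn ^ i)) :
    ρ g (ρ (en hP ^ i) v) = ρ (en hP ^ j) v := by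
  have h1 : g * en hP ^ i = en hP ^ j * ((en hP ^ j)⁻¹ * g * en hP ^ i) := by group
  rw [← mulv, h1, mulv]
  congr 1
  exact hv _ h

/-! ### the sum over `U7` -/

/-- the sum of the elements of `U7` -/
def E7 (ρ : Representation (ZMod 3) ↥P V) : V →ₗ[ZMod 3] V := ∑ i ∈ Finset.range 7, ρ (en hP ^ i)

theorem E7_apply (v : V) : E7 hP ρ v = ∑ i ∈ Finset.range 7, ρ (en hP ^ i) v := by
  rw [E7, LinearMap.sum_apply]

theorem E7_seven (v : V) : E7 hP ρ v = v + ρ (en hP) v + ρ (en hP ^ 2) v + ρ (en hP ^ 3) v + ρ (en hP ^ 4) v +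
    ρ (en hP ^ 5) v + ρ (en hP ^ 6) v := by
  rw [E7_apply, Finset.sum_range_succ, Finset.sum_range_succ, Finset.sum_range_succ, Finset.sum_range_succ,
    Finset.sum_range_succ, Finset.sum_range_succ, Finset.sum_range_one, pow_zero, pow_one, onev]

theorem n_E7 (v : V) : ρ (en hP) (E7 hP ρ v) = E7 hP ρ v := by
  rw [E7_seven, map_add, map_add, map_add, map_add, map_add, map_add, ← mulv, ← mulv, ← mulv, ← mulv, ← mulv, ← mulv,
    ← pow_succ', ← pow_succ', ← pow_succ', ← pow_succ', ← pow_succ', n_pow, onev, ← pow_two]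
  abel

theorem E7_n (v : V) : E7 hP ρ (ρ (en hP) v) = E7 hP ρ v := by
  rw [E7_seven, E7_seven, ← mulv, ← mulv, ← mulv, ← mulv, ← mulv, ← mulv,
    ← pow_succ, ← pow_succ, ← pow_succ, ← pow_succ, ← pow_succ, n_pow, onev, ← pow_two]
  abel

theorem E7_npow (k : ℕ) (v : V) : E7 hP ρ (ρ (en hP ^ k) v) = E7 hP ρ v := by
  induction k with
  | zero => rw [pow_zero, onev]
  | succ k ih => rw [pow_succ', mulv, E7_n, ih]

theorem E7_mem (v : V) : E7 hP ρ v ∈ fixS ρ U7 := (mem_U7 hP).2 (n_E7 hP v)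

theorem E7_fix (hv : v ∈ fixS ρ U7) : E7 hP ρ v = v := by
  rw [mem_U7 hP] at hv
  rw [E7_seven, hv, fix_pow hv, fix_pow hv, fix_pow hv, fix_pow hv, fix_pow hv, add_assoc, add_assoc, add_assoc,
    add_assoc, add_assoc]
  have h1 := three_smul' v
  calc v + (v + (v + (v + (v + (v + v))))) = (v + v + v) + (v + v + v) + v := by abel
    _ = v := by rw [h1, zero_add, zero_add]

theorem h_n_pow (k : ℕ) : eh hP * en hP ^ k = en hP ^ (2 * k) * eh hP := by
  induction k with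
  | zero => rw [mul_zero, pow_zero, mul_one, one_mul]
  | succ k ih => rw [pow_succ, ← mul_assoc, ih, mul_assoc, h_n, ← mul_assoc, ← pow_add, mul_add, mul_one]

theorem n_mod (k : ℕ) : en hP ^ (7 + k) = en hP ^ k := by rw [pow_add, n_pow, one_mul]

/-- `h` commutes with the sum over `U7` -/
theorem h_E7 (v : V) : ρ (eh hP) (E7 hP ρ v) = E7 hP ρ (ρ (eh hP) v) := by
  have e1 := h_n_pow hP 1
  have e2 := h_n_pow hP 2
  have e3 := h_n_pow hP 3
  have e4 := h_n_pow hP 4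
  have e5 := h_n_pow hP 5
  have e6 := h_n_pow hP 6
  rw [pow_one] at e1
  rw [show 2 * 4 = 7 + 1 by norm_num, n_mod, pow_one] at e4
  rw [show 2 * 5 = 7 + 3 by norm_num, n_mod] at e5
  rw [show 2 * 6 = 7 + 5 by norm_num, n_mod] at e6
  rw [E7_seven, E7_seven, map_add, map_add, map_add, map_add, map_add, map_add, ← mulv, ← mulv, ← mulv, ← mulv,
    ← mulv, ← mulv, e1, e2, e3, e4, e5, e6, mulv, mulv, mulv, mulv, mulv, mulv]
  abel

theorem h_E7_pow (k : ℕ) (v : V) : ρ (eh hP ^ k) (E7 hP ρ v) = E7 hP ρ (ρ (eh hP ^ k) v) := by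
  induction k with
  | zero => rw [pow_zero, onev, onev]
  | succ k ih => rw [pow_succ', mulv, ih, h_E7, mulv]

/-- the values on words -/
theorem E7_word (hv : v ∈ fixS ρ U7) (g : ↥P) (i j k : ℕ) (hg : g = en hP ^ i * eh hP ^ j * ew hP * en hP ^ k) :
    E7 hP ρ (ρ g v) = ρ (eh hP ^ j) (E7 hP ρ (ρ (ew hP) v)) := by
  rw [hg, mulv, fix_pow ((mem_U7 hP).1 hv), mulv, mulv, E7_npow, ← h_E7_pow]

end action

end Cfsg.Agent.H811.L7
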