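import Cfsg.Agent.H811.L7.Steps

/-!
# `RepS` (S5920, helper811)
-/

set_option autoImplicit false

namespace Cfsg.Agent.H811.L7

open Cfsg.Agent.H942.L7

/-- the fixed space of `PSL₂(7)` in a self-dual module in characteristic 3 -/
theorem repS : RepS := by
  intro V _ _ _ P hP ρ B hB _ hinv
  have h1 := step_one hP hB hinv
  have h2 := finrank_KK hP (ρ := ρ)
  have h3 := step_three hP (ρ := ρ)
  omega

end Cfsg.Agent.H811.L7
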