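import Cfsg.Agent.H811.L7.Base

/-!
# `PSL₂(7)` in characteristic 3: the three steps (S5920, helper811)

* `step_one` : `3 dim V^{D8a} ≤ dim V^{V4a} + 3 dim V^{S4a}`;
* `om`, `NN`, `EV` : `om v = E7 (w v)`, `NN = 1 + h + h²`, `EV` the sum over `V4b`;
  `E7_EV : E7 (EV v) = v + NN (om v)` for `v ∈ V^{U7}`, `h_om`, `om_om`;
* `KK` : the vectors `a` of `V^{S4a}` with `E7 a = 0`; `finrank_KK : dim KK + dim V^{P168} = dim V^{S4a}`;
* `indep` : `n a + n² b + n⁴ c = 0` with `a, b, c ∈ KK` only for `a = b = c = 0`;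
* `step_three` : `3 dim KK + dim V^{U7} ≤ dim V^{V4b}`.
-/

set_option autoImplicit false

namespace Cfsg.Agent.H811.L7

open Equiv Module LinearMap
open Cfsg.Agent.H942.L7

variable {V : Type*} [AddCommGroup V] [Module (ZMod 3) V]
variable {P : Subgroup (Perm (Fin 8))} (hP : P168 ≤ P) {ρ : Representation (ZMod 3) ↥P V} {v : V}

/-! ### step (1) -/

/-- relations in the symmetric group normalising `V4a` -/
theorem za_sq : eza hP * eza hP = 1 := Subtype.ext (show za * za = 1 by decide +kernel)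
theorem za'_sq : eza' hP * eza' hP = 1 := Subtype.ext (show za' * za' = 1 by decide +kernel)
theorem ta_sq : eta hP * eta hP = 1 := Subtype.ext (show ta * ta = 1 by decide +kernel)
theorem za'_za : eza' hP * eza hP = eza hP * eza' hP := Subtype.ext (show za' * za = za * za' by decide +kernel)
theorem za_h : eza hP * eh hP = eh hP * (eza hP * eza' hP) :=
  Subtype.ext (show za * g6 ^ 2 = g6 ^ 2 * (za * za') by decide +kernel)
theorem za'_h : eza' hP * eh hP = eh hP * eza hP := Subtype.ext (show za' * g6 ^ 2 = g6 ^ 2 * za by decide +kernel)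
theorem za_ta : eza hP * eta hP = eta hP * eza hP := Subtype.ext (show za * ta = ta * za by decide +kernel)
theorem za'_ta : eza' hP * eta hP = eta hP * (eza hP * eza' hP) :=
  Subtype.ext (show za' * ta = ta * (za * za') by decide +kernel)
theorem ta_h : eta hP * eh hP = eza' hP * eh hP ^ 2 * eta hP :=
  Subtype.ext (show ta * g6 ^ 2 = za' * (g6 ^ 2) ^ 2 * ta by decide +kernel)

include hP in
theorem h_V4a (hv : v ∈ fixS ρ V4a) : ρ (eh hP) v ∈ fixS ρ V4a := by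
  rw [mem_V4a hP] at hv ⊢
  refine ⟨?_, ?_⟩
  · rw [← mulv, za_h, mulv, fix_mul hv.1 hv.2]
  · rw [← mulv, za'_h, mulv, hv.1]

include hP in
theorem ta_V4a (hv : v ∈ fixS ρ V4a) : ρ (eta hP) v ∈ fixS ρ V4a := by
  rw [mem_V4a hP] at hv ⊢
  refine ⟨?_, ?_⟩
  · rw [← mulv, za_ta, mulv, hv.1]
  · rw [← mulv, za'_ta, mulv, fix_mul hv.1 hv.2]

/-- the skew operator `h - h⁻¹` -/
def dd (ρ : Representation (ZMod 3) ↥P V) : V →ₗ[ZMod 3] V := ρ (eh hP) - ρ (eh hP ^ 2)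

theorem dd_apply (v : V) : dd hP ρ v = ρ (eh hP) v - ρ (eh hP ^ 2) v := rfl

theorem h_h (v : V) : ρ (eh hP) (ρ (eh hP) v) = ρ (eh hP ^ 2) v := by rw [← mulv, pow_two]
theorem h_h2 (v : V) : ρ (eh hP) (ρ (eh hP ^ 2) v) = v := by rw [← mulv, ← pow_succ', h_pow, onev]
theorem h2_h (v : V) : ρ (eh hP ^ 2) (ρ (eh hP) v) = v := by rw [← mulv, ← pow_succ, h_pow, onev]
theorem h2_h2 (v : V) : ρ (eh hP ^ 2) (ρ (eh hP ^ 2) v) = ρ (eh hP) v := by
  rw [← mulv, ← pow_add, show 2 + 2 = 3 + 1 by norm_num, pow_add, h_pow, one_mul, pow_one]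

/-- `1 + h + h²` -/
def NN (ρ : Representation (ZMod 3) ↥P V) : V →ₗ[ZMod 3] V := LinearMap.id + ρ (eh hP) + ρ (eh hP ^ 2)

theorem NN_apply (v : V) : NN hP ρ v = v + ρ (eh hP) v + ρ (eh hP ^ 2) v := rfl

theorem dd_dd (v : V) : dd hP ρ (dd hP ρ v) = NN hP ρ v := by
  rw [dd_apply, dd_apply, map_sub, map_sub, h_h, h_h2, h2_h, h2_h2, NN_apply]
  have h1 := three_smul' v
  have h2 : v = -v - v := by
    rw [eq_sub_iff_add_eq, eq_neg_iff_add_eq_zero]
    exact h1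
  nth_rewrite 3 [h2]
  abel

theorem h_NN (v : V) : ρ (eh hP) (NN hP ρ v) = NN hP ρ v := by
  rw [NN_apply, map_add, map_add, h_h, h_h2]
  abel

theorem NN_h (v : V) : NN hP ρ (ρ (eh hP) v) = NN hP ρ v := by
  rw [NN_apply, NN_apply, h_h, h2_h]
  abel

theorem NN_NN (v : V) : NN hP ρ (NN hP ρ v) = 0 := by
  rw [NN_apply hP (NN hP ρ v), pow_two, mulv, h_NN, h_NN]
  exact three_smul' _

theorem dd_NN (v : V) : dd hP ρ (NN hP ρ v) = 0 := by
  rw [dd_apply, pow_two, mulv, h_NN, h_NN, sub_self]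

theorem NN_dd (v : V) : NN hP ρ (dd hP ρ v) = 0 := by
  rw [dd_apply, map_sub, pow_two, mulv, NN_h, NN_h, NN_h, sub_self]

/-- `h` in terms of `d` -/
theorem h_eq (v : V) : ρ (eh hP) v = v - dd hP ρ v - NN hP ρ v := by
  rw [dd_apply, NN_apply]
  have h1 := three_smul' (ρ (eh hP) v)
  have h2 : v - (ρ (eh hP) v - ρ (eh hP ^ 2) v) - (v + ρ (eh hP) v + ρ (eh hP ^ 2) v) =
    ρ (eh hP) v - (ρ (eh hP) v + ρ (eh hP) v + ρ (eh hP) v) := by abel
  rw [h2, h1, sub_zero]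

/-- kernel of `d` -/
theorem dd_eq_zero : dd hP ρ v = 0 ↔ ρ (eh hP) v = v := by
  constructor
  · intro h
    rw [dd_apply, sub_eq_zero] at h
    have h1 := congrArg (ρ (eh hP ^ 2)) h
    rw [h2_h, h2_h2] at h1
    exact h1.symm
  · intro h
    rw [dd_apply, fix_pow h, h, sub_self]

variable {B : LinearMap.BilinForm (ZMod 3) V}

theorem adj (hinv : ∀ g v v', B (ρ g v) (ρ g v') = B v v') {g g' : ↥P} (hg : g' * g = 1) (x y : V) :
    B (ρ g x) y = B x (ρ g' y) := by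
  rw [← hinv g' (ρ g x) y, ← mulv, hg, onev]

theorem dd_skew (hinv : ∀ g v v', B (ρ g v) (ρ g v') = B v v') (x y : V) :
    B (dd hP ρ x) y = - B x (dd hP ρ y) := by
  rw [dd_apply, dd_apply, map_sub, LinearMap.sub_apply, map_sub,
    adj hinv (g := eh hP) (g' := eh hP ^ 2) (by rw [← pow_succ, h_pow]),
    adj hinv (g := eh hP ^ 2) (g' := eh hP) (by rw [← pow_succ', h_pow])]
  ring

include hP in
theorem dd_V4a (hv : v ∈ fixS ρ V4a) : dd hP ρ v ∈ fixS ρ V4a := by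
  rw [dd_apply, pow_two, mulv]
  exact Submodule.sub_mem _ (h_V4a hP hv) (h_V4a hP (h_V4a hP hv))

include hP in
theorem ta_h_V4a (hv : v ∈ fixS ρ V4a) : ρ (eta hP) (ρ (eh hP) v) = ρ (eh hP ^ 2) (ρ (eta hP) v) := by
  rw [← mulv, ta_h, mulv, mulv]
  have h1 : ρ (eh hP ^ 2) (ρ (eta hP) v) ∈ fixS ρ V4a := by
    rw [pow_two, mulv]
    exact h_V4a hP (h_V4a hP (ta_V4a hP hv))
  exact ((mem_V4a hP).1 h1).2

theorem ta_dd (hv : v ∈ fixS ρ V4a) : ρ (eta hP) (dd hP ρ v) = - dd hP ρ (ρ (eta hP) v) := by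
  have h1 : ρ (eta hP) (ρ (eh hP ^ 2) v) = ρ (eh hP) (ρ (eta hP) v) := by
    rw [← h_h, ta_h_V4a hP (h_V4a hP hv), ta_h_V4a hP hv, h2_h2]
  rw [dd_apply, dd_apply, map_sub, ta_h_V4a hP hv, neg_sub, h1]

theorem two_ne : (2 : ZMod 3) ≠ 0 := by decide

include hP in
theorem eta_eta (v : V) : ρ (eta hP) (ρ (eta hP) v) = v := by rw [← mulv, ta_sq, onev]

include hP in
theorem D8a_eq : fixS ρ D8a = eig (fixS ρ V4a) (ρ (eta hP)) 1 := by
  ext v
  rw [mem_D8a hP, mem_eig, one_smul]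

include hP in
theorem finrank_V4a [Module.Finite (ZMod 3) V] : finrank (ZMod 3) (fixS ρ D8a) +
    finrank (ZMod 3) (eig (fixS ρ V4a) (ρ (eta hP)) (-1)) = finrank (ZMod 3) (fixS ρ V4a) := by
  rw [D8a_eq hP]
  exact finrank_eig two_ne (fun x hx => ta_V4a hP hx) fun x _ => eta_eta hP x

include hP in
theorem V4a_eq : fixS ρ V4a = eig (eig ⊤ (ρ (eza hP)) 1) (ρ (eza' hP)) 1 := by
  ext v
  rw [mem_V4a hP, mem_eig, mem_eig, one_smul]
  exact ⟨fun h => ⟨⟨trivial, h.1⟩, h.2⟩, fun h => ⟨h.1.2, h.2⟩⟩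

include hP in
theorem nd_V4a (hB : B.Nondegenerate) (hinv : ∀ g v v', B (ρ g v) (ρ g v') = B v v') : ND B (fixS ρ V4a) := by
  have h1 : ND B (eig ⊤ (ρ (eza hP)) 1) := (nd_top hB).eig two_ne (fun x _ => trivial)
    (fun x _ => by rw [← mulv, za_sq, onev]) (fun x _ y _ => hinv _ x y) (by norm_num)
  rw [V4a_eq hP]
  refine h1.eig two_ne (fun x hx => ?_) (fun x _ => by rw [← mulv, za'_sq, onev]) (fun x _ y _ => hinv _ x y)
    (by norm_num)
  rw [mem_eig, one_smul] at hx ⊢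
  exact ⟨trivial, by rw [← mulv, ← za'_za, mulv, hx.2]⟩

include hP in
theorem nd_eig (hB : B.Nondegenerate) (hinv : ∀ g v v', B (ρ g v) (ρ g v') = B v v') {c : ZMod 3} (hc : c * c = 1) :
    ND B (eig (fixS ρ V4a) (ρ (eta hP)) c) :=
  (nd_V4a hP hB hinv).eig two_ne (fun _ hx => ta_V4a hP hx) (fun x _ => eta_eta hP x)
    (fun x _ y _ => hinv _ x y) hc

theorem dd_eig {c : ZMod 3} (hv : v ∈ eig (fixS ρ V4a) (ρ (eta hP)) c) :
    dd hP ρ v ∈ eig (fixS ρ V4a) (ρ (eta hP)) (-c) := by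
  obtain ⟨h1, h2⟩ := mem_eig.1 hv
  exact mem_eig.2 ⟨dd_V4a hP h1, by rw [ta_dd hP h1, h2, map_smul, neg_smul]⟩

include hP in
theorem S4a_eq : fixS ρ S4a = fixS ρ D8a ⊓ LinearMap.ker (dd hP ρ) := by
  ext v
  rw [Submodule.mem_inf, LinearMap.mem_ker, dd_eq_zero, mem_D8a hP, mem_V4a hP, mem_S4a hP]
  tauto

/-- step (1) -/
theorem step_one [Module.Finite (ZMod 3) V] (hP : P168 ≤ P) (hB : B.Nondegenerate)
    (hinv : ∀ g v v', B (ρ g v) (ρ g v') = B v v') :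
    3 * finrank (ZMod 3) (fixS ρ D8a) ≤ finrank (ZMod 3) (fixS ρ V4a) + 3 * finrank (ZMod 3) (fixS ρ S4a) := by
  have h1 := skew_bound (X := eig (fixS ρ V4a) (ρ (eta hP)) 1) (nd_eig hP hB hinv (c := -1) (by norm_num)) (dd hP ρ)
    (fun x hx => dd_eig hP hx) (fun y hy => by have := dd_eig hP hy; rwa [neg_neg] at this)
    (fun x _ y _ => dd_skew hP hinv x y) (fun x _ => by rw [dd_dd, NN_dd])
  rw [← D8a_eq hP, ← S4a_eq hP] at h1
  have h2 := finrank_V4a hP (ρ := ρ)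
  omega

/-! ### step (2) -/

/-- `om v = E7 (w v)` -/
def om (ρ : Representation (ZMod 3) ↥P V) : V →ₗ[ZMod 3] V := E7 hP ρ ∘ₗ ρ (ew hP)

theorem om_apply (v : V) : om hP ρ v = E7 hP ρ (ρ (ew hP) v) := rfl

theorem om_mem (v : V) : om hP ρ v ∈ fixS ρ U7 := E7_mem hP _

include hP in
theorem h_U7 (hv : v ∈ fixS ρ U7) : ρ (eh hP) v ∈ fixS ρ U7 := by
  rw [← E7_fix hP hv, h_E7]
  exact E7_mem hP _

theorem h_om (v : V) : ρ (eh hP) (om hP ρ v) = om hP ρ (ρ (eh hP ^ 2) v) := by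
  rw [om_apply, om_apply, h_E7, ← mulv, ← mulv]
  congr 3
  have h1 := w_h hP
  calc eh hP * ew hP = eh hP * (ew hP * eh hP) * eh hP ^ 2 := by
        rw [mul_assoc, mul_assoc, ← pow_succ', h_pow, mul_one]
    _ = ew hP * eh hP ^ 2 := by rw [h1, ← mul_assoc, ← pow_succ', h_pow, one_mul]

theorem h2_om (v : V) : ρ (eh hP ^ 2) (om hP ρ v) = om hP ρ (ρ (eh hP) v) := by
  rw [pow_two, mulv, h_om, h_om, h2_h2]

theorem NN_om (v : V) : NN hP ρ (om hP ρ v) = om hP ρ (NN hP ρ v) := by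
  rw [NN_apply, NN_apply, h_om, h2_om, map_add, map_add]
  abel

theorem dd_om (v : V) : dd hP ρ (om hP ρ v) = - om hP ρ (dd hP ρ v) := by
  rw [dd_apply, dd_apply, h_om, h2_om, map_sub, neg_sub]

/-- `om² = 1 - N om` on `V^{U7}` -/
theorem om_om (hv : v ∈ fixS ρ U7) : om hP ρ (om hP ρ v) = v - NN hP ρ (om hP ρ v) := by
  have key : ∀ (i a j b : ℕ), ww * nn ^ i * ww = nn ^ a * (g6 ^ 2) ^ j * ww * nn ^ b →
      E7 hP ρ (ρ (ew hP) (ρ (en hP ^ i) (ρ (ew hP) v))) = ρ (eh hP ^ j) (om hP ρ v) := by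
    intro i a j b h
    rw [← mulv, ← mulv, om_apply]
    exact E7_word hP hv _ a j b (Subtype.ext h)
  have h1 := key 1 6 0 6 (by decide +kernel)
  have h2 := key 2 3 1 3 (by decide +kernel)
  have h3 := key 3 2 2 2 (by decide +kernel)
  have h4 := key 4 5 2 5 (by decide +kernel)
  have h5 := key 5 4 1 4 (by decide +kernel)
  have h6 := key 6 1 0 1 (by decide +kernel)
  have h0 : E7 hP ρ (ρ (ew hP) (ρ (ew hP) v)) = v := by
    rw [← mulv, ← pow_two, w_pow, onev, E7_fix hP hv]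
  rw [pow_one] at h1
  rw [pow_zero, onev] at h1 h6
  rw [pow_one] at h2 h5
  have h7 : om hP ρ (om hP ρ v) = v + om hP ρ v + ρ (eh hP) (om hP ρ v) + ρ (eh hP ^ 2) (om hP ρ v) +
      ρ (eh hP ^ 2) (om hP ρ v) + ρ (eh hP) (om hP ρ v) + om hP ρ v := by
    show E7 hP ρ (ρ (ew hP) (E7 hP ρ (ρ (ew hP) v))) = _
    rw [E7_seven hP (ρ (ew hP) v), map_add, map_add, map_add, map_add, map_add,
      map_add, map_add, map_add, map_add, map_add, map_add, map_add, h0, h1, h2, h3, h4, h5, h6]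
  rw [h7, NN_apply]
  have h8 := three_smul' (om hP ρ v)
  have h9 := three_smul' (ρ (eh hP) (om hP ρ v))
  have h10 := three_smul' (ρ (eh hP ^ 2) (om hP ρ v))
  rw [eq_sub_iff_add_eq]
  generalize om hP ρ v = x at *
  generalize ρ (eh hP) x = y at *
  generalize ρ (eh hP ^ 2) x = z at *
  calc v + x + y + z + z + y + x + (x + y + z) = v + (x + x + x) + (y + y + y) + (z + z + z) := by abel
    _ = v := by rw [h8, h9, h10, add_zero, add_zero, add_zero]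

/-- the sum over `V4b` -/
def EV (ρ : Representation (ZMod 3) ↥P V) : V →ₗ[ZMod 3] V :=
  LinearMap.id + ρ (ezb hP) + ρ (ezb' hP) + ρ (ezb hP * ezb' hP)

theorem EV_apply (v : V) : EV hP ρ v = v + ρ (ezb hP) v + ρ (ezb' hP) v + ρ (ezb hP * ezb' hP) v := rfl

theorem zb_sq : ezb hP * ezb hP = 1 := Subtype.ext (show zb * zb = 1 by decide +kernel)
theorem zb'_sq : ezb' hP * ezb' hP = 1 := Subtype.ext (show zb' * zb' = 1 by decide +kernel)
theorem zb'_zb : ezb' hP * ezb hP = ezb hP * ezb' hP := Subtype.ext (show zb' * zb = zb * zb' by decide +kernel)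

theorem EV_mem (v : V) : EV hP ρ v ∈ fixS ρ V4b := by
  rw [mem_V4b hP, EV_apply]
  constructor
  · rw [map_add, map_add, map_add, ← mulv, ← mulv, ← mulv, zb_sq, onev, ← mul_assoc, zb_sq, one_mul]
    abel
  · rw [map_add, map_add, map_add, ← mulv, ← mulv, ← mulv, zb'_sq, onev, ← mul_assoc, zb'_zb, mul_assoc, zb'_sq, mul_one]
    abel

theorem EV_fix (hv : v ∈ fixS ρ V4b) : EV hP ρ v = v := by
  obtain ⟨h1, h2⟩ := (mem_V4b hP).1 hv
  rw [EV_apply, fix_mul h1 h2, h1, h2, three_smul', zero_add]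

theorem E7_EV (hv : v ∈ fixS ρ U7) : E7 hP ρ (EV hP ρ v) = v + NN hP ρ (om hP ρ v) := by
  have h1 := E7_word hP hv (ezb hP) 2 1 5
    (Subtype.ext (show zb = nn ^ 2 * (g6 ^ 2) ^ 1 * ww * nn ^ 5 by decide +kernel))
  have h2 := E7_word hP hv (ezb' hP) 1 2 6
    (Subtype.ext (show zb' = nn ^ 1 * (g6 ^ 2) ^ 2 * ww * nn ^ 6 by decide +kernel))
  have h3 := E7_word hP hv (ezb hP * ezb' hP) 4 0 3
    (Subtype.ext (show zb * zb' = nn ^ 4 * (g6 ^ 2) ^ 0 * ww * nn ^ 3 by decide +kernel))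
  rw [pow_one] at h1
  rw [pow_zero, onev] at h3
  rw [EV_apply, map_add, map_add, map_add, h1, h2, h3, E7_fix hP hv, NN_apply, om_apply]
  abel

/-- `E7 ∘ EV` is injective on `V^{U7}` -/
theorem eq_zero_of_E7_EV (hv : v ∈ fixS ρ U7) (h : E7 hP ρ (EV hP ρ v) = 0) : v = 0 := by
  rw [E7_EV hP hv] at h
  have h1 : NN hP ρ v = 0 := by
    have h2 := congrArg (NN hP ρ) h
    rwa [map_add, NN_NN, add_zero, map_zero] at h2
  rw [NN_om, h1, map_zero, add_zero] at h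
  exact h

/-! ### step (3) -/

/-- the vectors `a` of `V^{S4a}` with `E7 a = 0` -/
def KK (ρ : Representation (ZMod 3) ↥P V) : Submodule (ZMod 3) V := fixS ρ S4a ⊓ LinearMap.ker (E7 hP ρ)

theorem mem_KK : v ∈ KK hP ρ ↔ v ∈ fixS ρ S4a ∧ E7 hP ρ v = 0 := by
  rw [KK, Submodule.mem_inf, LinearMap.mem_ker]

/-- the sum over the cosets of `S4a` is invariant -/
theorem E7_inv (hv : v ∈ fixS ρ S4a) : E7 hP ρ v ∈ fixS ρ P168 := by
  rw [mem_P168 hP]
  refine ⟨n_E7 hP v, ?_, ?_⟩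
  · rw [h_E7, ((mem_S4a hP).1 hv).2.2.2]
  · have key : ∀ i j : ℕ, inS4 ((nn ^ j)⁻¹ * ww * nn ^ i) → ρ (ew hP) (ρ (en hP ^ i) v) = ρ (en hP ^ j) v :=
      fun i j h => coset_act hP (ew hP) i j hv h
    have h0 := key 0 0 (by decide +kernel)
    have h1 := key 1 2 (by decide +kernel)
    have h2 := key 2 1 (by decide +kernel)
    have h3 := key 3 6 (by decide +kernel)
    have h4 := key 4 4 (by decide +kernel)
    have h5 := key 5 5 (by decide +kernel)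
    have h6 := key 6 3 (by decide +kernel)
    rw [pow_zero, onev] at h0
    rw [pow_one] at h1 h2
    rw [E7_seven, map_add, map_add, map_add, map_add, map_add, map_add, h0, h1, h2, h3, h4, h5, h6]
    abel

theorem P168_le (hv : v ∈ fixS ρ P168) : v ∈ fixS ρ S4a := by
  rw [mem_fixS] at hv ⊢
  rintro g ⟨i, j, k, l, hg⟩
  apply hv
  rw [hg]
  exact mul_mem (mul_mem (mul_mem (pow_mem za_mem _) (pow_mem za'_mem _)) (pow_mem ta_mem _)) (pow_mem hh_mem _)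

theorem P168_le_U7 (hv : v ∈ fixS ρ P168) : v ∈ fixS ρ U7 := by
  rw [mem_fixS] at hv ⊢
  rintro g ⟨i, hg⟩
  apply hv
  rw [hg]
  exact pow_mem nn_mem i

theorem finrank_KK [Module.Finite (ZMod 3) V] :
    finrank (ZMod 3) (KK hP ρ) + finrank (ZMod 3) (fixS ρ P168) = finrank (ZMod 3) (fixS ρ S4a) := by
  let f : fixS ρ S4a →ₗ[ZMod 3] V := (E7 hP ρ).domRestrict (fixS ρ S4a)
  have h1 : range f = fixS ρ P168 := by
    ext v
    constructor
    · rintro ⟨x, rfl⟩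
      exact E7_inv hP x.2
    · intro hv
      exact ⟨⟨v, P168_le hv⟩, E7_fix hP (P168_le_U7 hv)⟩
  have h2 : (ker f).map (fixS ρ S4a).subtype = KK hP ρ := by
    ext v
    constructor
    · rintro ⟨x, hx, rfl⟩
      exact (mem_KK hP).2 ⟨x.2, hx⟩
    · intro hv
      obtain ⟨h3, h4⟩ := (mem_KK hP).1 hv
      exact ⟨⟨v, h3⟩, h4, rfl⟩
  have h3 := LinearMap.finrank_range_add_finrank_ker f
  rw [h1] at h3
  rw [← h2, ← LinearEquiv.finrank_eq (Submodule.equivMapOfInjective (fixS ρ S4a).subtype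
    (fixS ρ S4a).injective_subtype (ker f)), ← h3, add_comm]

/-- the vectors at the cosets 1, 2, 4 are fixed by `V4b` -/
theorem coset_V4b (hv : v ∈ fixS ρ S4a) {i : ℕ} (hi : i = 1 ∨ i = 2 ∨ i = 4) :
    ρ (en hP ^ i) v ∈ fixS ρ V4b := by
  rw [mem_V4b hP]
  constructor
  · refine coset_act hP (ezb hP) i i hv ?_
    show inS4 ((nn ^ i)⁻¹ * zb * nn ^ i)
    rcases hi with rfl | rfl | rfl <;> decide +kernel
  · refine coset_act hP (ezb' hP) i i hv ?_
    show inS4 ((nn ^ i)⁻¹ * zb' * nn ^ i)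
    rcases hi with rfl | rfl | rfl <;> decide +kernel

/-- the sum over `V4a` -/
def EA (ρ : Representation (ZMod 3) ↥P V) : V →ₗ[ZMod 3] V :=
  LinearMap.id + ρ (eza hP) + ρ (eza' hP) + ρ (eza hP * eza' hP)

theorem EA_apply (v : V) : EA hP ρ v = v + ρ (eza hP) v + ρ (eza' hP) v + ρ (eza hP * eza' hP) v := rfl

theorem EA_zero (hv : v ∈ fixS ρ S4a) : EA hP ρ v = v := by
  obtain ⟨h1, h2, -, -⟩ := (mem_S4a hP).1 hv
  rw [EA_apply, fix_mul h1 h2, h1, h2, three_smul', zero_add]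

theorem EA_one (hv : v ∈ fixS ρ S4a) : EA hP ρ (ρ (en hP ^ 1) v) = - (ρ (en hP ^ 1) v + ρ (en hP ^ 3) v) := by
  have h1 := coset_act hP (eza hP) 1 1 hv (show inS4 ((nn ^ 1)⁻¹ * za * nn ^ 1) by decide +kernel)
  have h2 := coset_act hP (eza' hP) 1 3 hv (show inS4 ((nn ^ 3)⁻¹ * za' * nn ^ 1) by decide +kernel)
  have h3 := coset_act hP (eza hP * eza' hP) 1 3 hv (show inS4 ((nn ^ 3)⁻¹ * (za * za') * nn ^ 1) by decide +kernel)
  rw [EA_apply, h1, h2, h3]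
  have h4 := three_smul' (ρ (en hP ^ 1) v)
  have h5 := three_smul' (ρ (en hP ^ 3) v)
  generalize ρ (en hP ^ 1) v = x at *
  generalize ρ (en hP ^ 3) v = y at *
  rw [eq_neg_iff_add_eq_zero]
  calc x + x + y + y + (x + y) = (x + x + x) + (y + y + y) := by abel
    _ = 0 := by rw [h4, h5, add_zero]

theorem EA_three (hv : v ∈ fixS ρ S4a) : EA hP ρ (ρ (en hP ^ 3) v) = - (ρ (en hP ^ 1) v + ρ (en hP ^ 3) v) := by
  have h1 := coset_act hP (eza hP) 3 3 hv (show inS4 ((nn ^ 3)⁻¹ * za * nn ^ 3) by decide +kernel)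
  have h2 := coset_act hP (eza' hP) 3 1 hv (show inS4 ((nn ^ 1)⁻¹ * za' * nn ^ 3) by decide +kernel)
  have h3 := coset_act hP (eza hP * eza' hP) 3 1 hv (show inS4 ((nn ^ 1)⁻¹ * (za * za') * nn ^ 3) by decide +kernel)
  rw [EA_apply, h1, h2, h3]
  have h4 := three_smul' (ρ (en hP ^ 1) v)
  have h5 := three_smul' (ρ (en hP ^ 3) v)
  generalize ρ (en hP ^ 1) v = x at *
  generalize ρ (en hP ^ 3) v = y at *
  rw [eq_neg_iff_add_eq_zero]
  calc y + y + x + x + (x + y) = (x + x + x) + (y + y + y) := by abel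
    _ = 0 := by rw [h4, h5, add_zero]

/-- an element of `KK` with `n v = n³ v` is zero -/
theorem KK_eq_zero (hv : v ∈ KK hP ρ) (h : ρ (en hP ^ 1) v = ρ (en hP ^ 3) v) : v = 0 := by
  have h1 : ρ (en hP ^ 2) v = v := by
    have h2 := congrArg (ρ (en hP ^ 6)) h
    rw [← mulv, ← mulv, ← pow_add, ← pow_add, show 6 + 1 = 7 by norm_num, show 6 + 3 = 7 + 2 by norm_num, n_mod,
      n_pow, onev] at h2
    exact h2.symm
  have h2 : ρ (en hP) v = v := by
    have h3 : en hP = (en hP ^ 2) ^ 4 := by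
      rw [← pow_mul, show 2 * 4 = 7 + 1 by norm_num, n_mod, pow_one]
    rw [h3]
    exact fix_pow h1 4
  rw [← E7_fix hP ((mem_U7 hP).2 h2)]
  exact ((mem_KK hP).1 hv).2

theorem indep_aux {a b c : V} (ha : a ∈ KK hP ρ) (hb : b ∈ KK hP ρ) (hc : c ∈ KK hP ρ)
    (h : ρ (en hP ^ 1) a + ρ (en hP ^ 2) b + ρ (en hP ^ 4) c = 0) : b = c := by
  have ha' := ((mem_KK hP).1 ha).1
  have hb' := ((mem_KK hP).1 hb).1
  have hc' := ((mem_KK hP).1 hc).1
  have h1 : a + ρ (en hP ^ 1) b + ρ (en hP ^ 3) c = 0 := by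
    have h2 := congrArg (ρ (en hP ^ 6)) h
    rw [map_add, map_add, map_zero, ← mulv, ← mulv, ← mulv, ← pow_add, ← pow_add, ← pow_add, show 6 + 1 = 7 by norm_num,
      show 6 + 2 = 7 + 1 by norm_num, show 6 + 4 = 7 + 3 by norm_num, n_mod, n_mod, n_pow, onev] at h2
    exact h2
  have h2 := congrArg (EA hP ρ) h1
  rw [map_add, map_add, map_zero, EA_zero hP ha', EA_one hP hb', EA_three hP hc'] at h2
  have h3 : ρ (en hP ^ 1) (b - c) = ρ (en hP ^ 3) (b - c) := by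
    rw [map_sub, map_sub]
    have h4 := three_smul' (ρ (en hP ^ 1) b)
    have h5 := three_smul' (ρ (en hP ^ 3) c)
    generalize ρ (en hP ^ 1) b = b1 at *
    generalize ρ (en hP ^ 3) b = b3 at *
    generalize ρ (en hP ^ 1) c = c1 at *
    generalize ρ (en hP ^ 3) c = c3 at *
    have h6 : a = - b1 - c3 := by
      rw [eq_sub_iff_add_eq, eq_neg_iff_add_eq_zero, ← h1]
      abel
    rw [h6] at h2
    have h7 : b1 - c1 - (b3 - c3) = (b1 + b1 + b1) + (c3 + c3 + c3) +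
        (- b1 - c3 + - (b1 + b3) + - (c1 + c3)) := by abel
    rw [h4, h5, h2, add_zero, add_zero] at h7
    exact sub_eq_zero.1 h7
  exact sub_eq_zero.1 (KK_eq_zero hP (Submodule.sub_mem _ hb hc) h3)

/-- independence -/
theorem indep {a b c : V} (ha : a ∈ KK hP ρ) (hb : b ∈ KK hP ρ) (hc : c ∈ KK hP ρ)
    (h : ρ (en hP ^ 1) a + ρ (en hP ^ 2) b + ρ (en hP ^ 4) c = 0) : a = 0 ∧ b = 0 ∧ c = 0 := by
  have ha' := ((mem_KK hP).1 ha).1
  have hb' := ((mem_KK hP).1 hb).1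
  have hc' := ((mem_KK hP).1 hc).1
  have hh : ∀ x ∈ fixS ρ S4a, ∀ i : ℕ, ρ (eh hP) (ρ (en hP ^ i) x) = ρ (en hP ^ (2 * i)) x := by
    intro x hx i
    rw [← mulv, h_n_pow, mulv, ((mem_S4a hP).1 hx).2.2.2]
  have h1 := indep_aux hP ha hb hc h
  have h2 : ρ (en hP ^ 1) c + ρ (en hP ^ 2) a + ρ (en hP ^ 4) b = 0 := by
    have h3 := congrArg (ρ (eh hP)) h
    rw [map_add, map_add, map_zero, hh a ha', hh b hb', hh c hc', show 2 * 4 = 7 + 1 by norm_num, n_mod] at h3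
    rw [← h3]
    abel
  have h3 := indep_aux hP hc ha hb h2
  subst h3
  subst h1
  have e7 := ((mem_KK hP).1 ha).2
  rw [E7_seven] at e7
  have key : ∀ i : ℕ, ρ (en hP ^ (i + 1)) a + ρ (en hP ^ (i + 2)) a + ρ (en hP ^ (i + 4)) a = 0 := by
    intro i
    have h3 := congrArg (ρ (en hP ^ i)) h
    rwa [map_add, map_add, map_zero, ← mulv, ← mulv, ← mulv, ← pow_add, ← pow_add, ← pow_add] at h3
  have k6 := key 6
  have k5 := key 5
  have k3 := key 3
  rw [show 6 + 1 = 7 by norm_num, show 6 + 2 = 7 + 1 by norm_num, show 6 + 4 = 7 + 3 by norm_num, n_mod, n_mod, n_pow,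
    onev, pow_one] at k6
  rw [show 5 + 1 = 6 by norm_num, show 5 + 2 = 7 by norm_num, show 5 + 4 = 7 + 2 by norm_num, n_mod, n_pow, onev] at k5
  rw [show 3 + 1 = 4 by norm_num, show 3 + 2 = 5 by norm_num, show 3 + 4 = 7 by norm_num, n_pow, onev] at k3
  have h5 := three_smul' a
  have ha0 : a = 0 := by
    generalize ρ (en hP) a = a1 at *
    generalize ρ (en hP ^ 2) a = a2 at *
    generalize ρ (en hP ^ 3) a = a3 at *
    generalize ρ (en hP ^ 4) a = a4 at *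
    generalize ρ (en hP ^ 5) a = a5 at *
    generalize ρ (en hP ^ 6) a = a6 at *
    have h6 : a = (a + a1 + a2 + a3 + a4 + a5 + a6) + (a + a + a) - ((a + a1 + a3) + (a6 + a + a2) + (a4 + a5 + a)) := by
      abel
    rw [e7, h5, k6, k5, k3] at h6
    rw [h6]
    abel
  exact ⟨ha0, ha0, ha0⟩

/-- step (3) -/
theorem step_three [Module.Finite (ZMod 3) V] :
    3 * finrank (ZMod 3) (KK hP ρ) + finrank (ZMod 3) (fixS ρ U7) ≤ finrank (ZMod 3) (fixS ρ V4b) := by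
  let Φ : (KK hP ρ) × (KK hP ρ) × (KK hP ρ) × (fixS ρ U7) →ₗ[ZMod 3] V :=
    (ρ (en hP ^ 1) ∘ₗ (KK hP ρ).subtype).coprod ((ρ (en hP ^ 2) ∘ₗ (KK hP ρ).subtype).coprod
      ((ρ (en hP ^ 4) ∘ₗ (KK hP ρ).subtype).coprod (EV hP ρ ∘ₗ (fixS ρ U7).subtype)))
  have hΦ : ∀ (a b c : KK hP ρ) (v : fixS ρ U7), Φ (a, b, c, v) =
      ρ (en hP ^ 1) a + (ρ (en hP ^ 2) b + (ρ (en hP ^ 4) c + EV hP ρ v)) := fun _ _ _ _ => rfl
  have h1 : ∀ x, Φ x ∈ fixS ρ V4b := by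
    rintro ⟨a, b, c, v⟩
    rw [hΦ]
    exact Submodule.add_mem _ (coset_V4b hP ((mem_KK hP).1 a.2).1 (Or.inl rfl))
      (Submodule.add_mem _ (coset_V4b hP ((mem_KK hP).1 b.2).1 (Or.inr (Or.inl rfl)))
        (Submodule.add_mem _ (coset_V4b hP ((mem_KK hP).1 c.2).1 (Or.inr (Or.inr rfl))) (EV_mem hP (v : V))))
  have h2 : Function.Injective Φ := by
    rw [injective_iff_map_eq_zero]
    rintro ⟨a, b, c, v⟩ h
    rw [hΦ] at h
    have h3 := congrArg (E7 hP ρ) h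
    rw [map_add, map_add, map_add, map_zero, E7_npow, E7_npow, E7_npow, ((mem_KK hP).1 a.2).2, ((mem_KK hP).1 b.2).2,
      ((mem_KK hP).1 c.2).2, zero_add, zero_add, zero_add] at h3
    have h4 : (v : V) = 0 := eq_zero_of_E7_EV hP v.2 h3
    rw [h4, map_zero, add_zero, ← add_assoc] at h
    obtain ⟨h5, h6, h7⟩ := indep hP a.2 b.2 c.2 h
    have e1 : a = 0 := Subtype.ext h5
    have e2 : b = 0 := Subtype.ext h6
    have e3 : c = 0 := Subtype.ext h7
    have e4 : v = 0 := Subtype.ext h4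
    rw [e1, e2, e3, e4]
    rfl
  have h3 := LinearMap.finrank_le_finrank_of_injective (f := Φ.codRestrict (fixS ρ V4b) h1)
    (fun x y h => h2 (congrArg Subtype.val h))
  rw [Module.finrank_prod, Module.finrank_prod, Module.finrank_prod] at h3
  omega

end Cfsg.Agent.H811.L7
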